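import Cfsg.Agent.H284.SepOrd
import Cfsg.Agent.S0494
import Cfsg.Agent.ClassicalGeometry.PSL2Basic
import Cfsg.Agent.CTwoTab.Base
import Cfsg.Prelude.Def_EvenType

/-!
# Groups on the `C₂` list of Lie type in characteristic 5 or alternating of odd degree (helper284)

The only one is `A₅`.
-/

set_option autoImplicit false

namespace Cfsg.Agent.H284.CpTwoFive

open Cfsg Cfsg.Agent.H902 Cfsg.Agent.H284.SepOrd

universe u

theorem spor_fact : ∀ x ∈ OrdDiv.spor, ∀ m ∈ List.range 46, 2 * x.2 ≠ m.factorial := by decide +kernel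

theorem spor_lt : ∀ x ∈ OrdDiv.spor, 2 * x.2 < (46).factorial := by decide +kernel

theorem spor_ne {x : OrdDiv.Grp × ℕ} (hx : x ∈ OrdDiv.spor) (m : ℕ) : 2 * x.2 ≠ m.factorial := by
  rcases Nat.lt_or_ge m 46 with h | h
  · exact spor_fact x hx m (List.mem_range.2 h)
  · have h1 := Nat.factorial_le h
    have h2 := spor_lt x hx
    omega

variable {S : Type u} [Group S]

theorem alt_grp (T : OrdDiv.OrderTable.{u}) {n : ℕ} (hn : 5 ≤ n) (e : S ≃* ↥(alternatingGroup (Fin n))) (g : OrdDiv.Grp)
    (hg : g ∈ OrdDiv.spor.map (fun x => x.1)) (hS : OrdDiv.Real g S) : False := by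
  obtain ⟨x, hx, rfl⟩ := List.mem_map.1 hg
  have h1 := T.spor S x hx hS
  have h2 := OrdDiv.alt_card hn e
  rw [h1] at h2
  exact spor_ne hx n h2.symm

/-- the hypothesis of S3096 on `A/Z(A)` (without the Lyons group) -/
def Five (S : Type u) [Group S] : Prop :=
  IsLieTypeChar 5 S ∨ ∃ n : ℕ, 2 ≤ n ∧ Nonempty (S ≃* ↥(alternatingGroup (Fin (2 * n + 1))))

theorem Five.congr {S' : Type*} [Group S'] (h : Five S) (e : S ≃* S') : Five S' := by
  rcases h with h | ⟨n, hn, ⟨f⟩⟩
  · exact Or.inl (CTwoTab.isLieTypeChar_congr e h)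
  · exact Or.inr ⟨n, hn, ⟨e.symm.trans f⟩⟩

theorem five_spor (T : OrdDiv.OrderTable.{u}) (h : Five S) (g : OrdDiv.Grp)
    (hg : g ∈ OrdDiv.spor.map (fun x => x.1)) (hS : OrdDiv.Real g S) : False := by
  rcases h with h | ⟨n, hn, ⟨f⟩⟩
  · exact spor_grp T Nat.prime_five (by norm_num) h g hg hS
  · exact alt_grp T (by omega) f g hg hS

/-- odd characteristic -/
theorem five_lie (T : OrdDiv.OrderTable.{u}) (h : Five S) {p : ℕ} (hp : p.Prime) (hp2 : p ≠ 2)
    (hS : IsLieTypeChar p S) : p = 5 := by
  rcases h with h | ⟨n, hn, ⟨f⟩⟩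
  · exact (sep_odd T Nat.prime_five (by norm_num) hp hp2 h hS).symm
  · rcases alt T hp hp2 hS (by omega) f with h | h <;> omega

theorem chk_12 : chk [3] 12 = true := by decide +kernel
theorem chk_504 : chk [3] 504 = true := by decide +kernel

/-- order excluded -/
theorem five_card (T : OrdDiv.OrderTable.{u}) (h : Five S) {N : ℕ} (hc : chk [3] N = true)
    (hf : ∀ m, 5 ≤ m → 2 * N ≠ m.factorial) : Nat.card S ≠ N := by
  intro hN
  rcases h with h | ⟨n, hn, ⟨f⟩⟩
  · obtain ⟨X, f, hX⟩ := real_of_lie T Nat.prime_five h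
    rw [hN] at hX
    exact chk_real hX hc (by norm_num) (by decide)
  · have h2 := OrdDiv.alt_card (by omega) f
    rw [hN] at h2
    exact hf _ (by omega) h2.symm

/-- characteristic 2: order 60 -/
theorem five_two (T : OrdDiv.OrderTable.{u}) (h : Five S) (hS : IsLieTypeChar 2 S) : Nat.card S = 60 := by
  rcases h with h | ⟨n, hn, ⟨f⟩⟩
  · have h1 := sep T Nat.prime_five Nat.prime_two (by norm_num) h hS
    obtain ⟨X, f, hX⟩ := real_of_lie T Nat.prime_five h
    rcases h1 with h1 | h1 | h1
    · exact h1
    · rw [h1] at hX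
      exact (chk_real hX chk_168 (by norm_num) (by simp)).elim
    · rw [h1] at hX
      exact (chk_real hX chk_25920 (by norm_num) (by simp)).elim
  · obtain ⟨X, g, hX⟩ := real_of_lie T Nat.prime_two hS
    have hc := OrdDiv.alt_card (by omega) f
    rcases Art.alt_lie hX (by omega) hc.symm with h1 | h1 | h1
    · exact h1
    · rw [h1] at hc
      have := Art.alt_inj (M := 360) (show 5 ≤ 2 * n + 1 by omega) hc.symm (m := 6) (by decide)
      omega
    · rw [h1] at hc
      have := Art.alt_inj (M := 20160) (show 5 ≤ 2 * n + 1 by omega) hc.symm (m := 8) (by decide)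
      omega

theorem five_alt (T : OrdDiv.OrderTable.{u}) (h : Five S) {m : ℕ} (hm : 5 ≤ m)
    (e : S ≃* ↥(alternatingGroup (Fin m))) : Odd m := by
  rcases h with h | ⟨n, hn, ⟨f⟩⟩
  · rcases alt T Nat.prime_five (by norm_num) h hm e with h | h
    · rw [h.1]; decide
    · omega
  · have h1 := OrdDiv.alt_card hm e
    have h2 := OrdDiv.alt_card (show 5 ≤ 2 * n + 1 by omega) f
    have h3 := Art.alt_inj hm h1.symm (h2.symm)
    exact ⟨n, h3⟩

theorem fact_ge {m : ℕ} (hm : 5 ≤ m) : 120 ≤ m.factorial := by
  have := Nat.factorial_le hm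
  exact this

/-- `S` is not of order 12 or 504 -/
theorem ne_12 (T : OrdDiv.OrderTable.{u}) (h : Five S) : Nat.card S ≠ 12 :=
  five_card T h chk_12 fun m hm h1 => by have := fact_ge hm; omega

theorem ne_504 (T : OrdDiv.OrderTable.{u}) (h : Five S) : Nat.card S ≠ 504 :=
  five_card T h chk_504 fun m hm h1 => by
    rcases Nat.lt_or_ge m 7 with h7 | h7
    · interval_cases m
      · have : (5).factorial = 120 := rfl
        omega
      · have : (6).factorial = 720 := rfl
        omega
    · have h2 : 5040 ≤ m.factorial := Nat.factorial_le h7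
      omega

theorem isChar_of_card {F : Type} [Field F] [Fintype F] : ∃ r f : ℕ, r.Prime ∧ 1 ≤ f ∧ CharP F r ∧
    Fintype.card F = r ^ f := by
  obtain ⟨r, hr⟩ := CharP.exists F
  have hp : r.Prime := by
    rcases CharP.char_is_prime_or_zero F r with h | h
    · exact h
    · exfalso
      rw [h] at hr
      have := CharP.charP_to_charZero F
      have h1 : Infinite F := CharZero.infinite F
      exact h1.false
  have : Fact r.Prime := ⟨hp⟩
  obtain ⟨n, -, hn⟩ := FiniteField.card F r
  exact ⟨r, n, hp, n.pos, hr, hn⟩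

/-- characteristic 3 field of 3 or 9 elements -/
theorem char_three {F : Type} [Field F] [Fintype F] (h : Fintype.card F = 3 ∨ Fintype.card F = 9) : CharP F 3 := by
  obtain ⟨r, f, hr, hf, hc, hF⟩ := isChar_of_card (F := F)
  have h3 : r ∣ 9 := by
    have h1 : r ∣ Fintype.card F := by rw [hF]; exact dvd_pow_self r (by omega)
    rcases h with h | h
    · rw [h] at h1; exact h1.trans (by norm_num)
    · rw [h] at h1; exact h1
  have h4 : r = 3 := (Nat.prime_dvd_prime_iff_eq hr Nat.prime_three).1 (hr.dvd_of_dvd_pow (n := 2) h3)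
  rwa [h4] at hc

/-- **The `C₂` list.** -/
theorem five_cp (T : OrdDiv.OrderTable.{u}) [Finite S] [IsSimpleGroup S] (hna : ¬ IsMulCommutative S) (h : Five S)
    (hS : IsCpSimple 2 S) : Nonempty (S ≃* ↥(alternatingGroup (Fin 5))) := by
  have key : Nat.card S = 60 → Nonempty (S ≃* ↥(alternatingGroup (Fin 5))) := fun h60 => S0494.result h60
  have k3 : IsLieTypeChar 3 S → Nonempty (S ≃* ↥(alternatingGroup (Fin 5))) := fun h3 => by
    have := five_lie T h Nat.prime_three (by norm_num) h3
    omega
  rcases hS with (hS | ⟨-, ⟨⟨e⟩⟩ | ⟨F, _, _, hF, ⟨e⟩⟩ | hS⟩ | ⟨h23, -⟩) | ⟨n, hn, ⟨e⟩⟩ | ⟨-, hS⟩ | ⟨h23, -⟩ | ⟨h23, -⟩ |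
    ⟨h23, -⟩ | ⟨h23, -⟩
  · exact key (five_two T h hS)
  · exact absurd (five_alt T h (by norm_num) e) (by decide)
  · have := char_three (Or.inr hF)
    exact k3 (Or.inr (Or.inr (Or.inl ⟨F, inferInstance, inferInstance, this, 3, 3, by rw [hF]; norm_num, le_rfl,
      by norm_num, ⟨e⟩⟩)))
  · exact (five_spor T h .tits (by decide) hS).elim
  · omega
  · rcases hn with rfl | rfl | rfl
    · -- `A_2`
      exfalso
      have h1 : Nat.card ↥(alternatingGroup (Fin 2)) = 1 := by
        rw [nat_card_alternatingGroup]; simp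
      have h2 : Nat.card S = 1 := by rw [Nat.card_congr e.toEquiv, h1]
      have h3 : Subsingleton S := (Nat.card_eq_one_iff_unique.1 h2).1
      exact hna ⟨⟨fun a b => Subsingleton.elim _ _⟩⟩
    · exfalso
      apply ne_12 T h
      rw [Nat.card_congr e.toEquiv, nat_card_alternatingGroup]
      simp [Nat.factorial]
    · exact absurd (five_alt T h (by norm_num) e) (by decide)
  · rcases hS with ⟨F, _, _, hq, ⟨e⟩⟩ | ⟨F, _, _, hF, hS⟩ | ⟨F, _, _, hF, ⟨e⟩⟩ | hS
    · -- `L₂(q)`
      obtain ⟨r, f, hr, hf, hc, hF⟩ := isChar_of_card (F := F)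
      rcases hq with ⟨hqp, hq⟩ | hq
      · have hqr : Fintype.card F = r := by
          have h1 : r ∣ Fintype.card F := by rw [hF]; exact dvd_pow_self r (by omega)
          exact ((Nat.prime_dvd_prime_iff_eq hr hqp).1 h1).symm
        have hodd : Odd (Fintype.card F) := by
          rcases hq with ⟨k, hk, hq⟩ | ⟨k, hq⟩
          · rw [hq]
            exact ((even_two).pow_of_ne_zero (by omega)).add_one
          · rw [← Nat.not_even_iff_odd]
            intro he
            have h2 := (Nat.Prime.even_iff hqp).1 he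
            rw [h2] at hq
            have h3 : 2 ^ k ≠ 3 := by
              rcases k with _ | _ | k
              · norm_num
              · norm_num
              · rw [pow_succ, pow_succ]; omega
            exact h3 hq.symm
        have hcard := ClassicalGeometry.PSL2Basic.card_PSL2_odd F hodd
        have h2 : r ≠ 2 := by
          rw [← hqr]
          rintro h2
          rw [h2] at hodd
          exact absurd hodd (by decide)
        by_cases h3 : Fintype.card F = 3
        · exfalso
          apply ne_12 T h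
          rw [Nat.card_congr e.toEquiv]
          rw [h3] at hcard
          omega
        · have h4 : 4 ≤ Fintype.card F := by
            have := hr.two_le
            omega
          have h5 := five_lie T h hr h2 (Or.inl ⟨F, inferInstance, inferInstance, hc, 2, le_rfl, fun _ => h4, ⟨e⟩⟩)
          apply key
          rw [Nat.card_congr e.toEquiv]
          rw [hqr, h5] at hcard
          omega
      · have := char_three (Or.inr hq)
        exact k3 (Or.inl ⟨F, inferInstance, inferInstance, this, 2, le_rfl, fun _ => by omega, ⟨e⟩⟩)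
    · have := char_three (Or.inl hF)
      rcases hS with ⟨⟨e⟩⟩ | ⟨⟨e⟩⟩ | ⟨⟨e⟩⟩
      · exact k3 (Or.inl ⟨F, inferInstance, inferInstance, this, 3, by norm_num, by norm_num, ⟨e⟩⟩)
      · exact k3 (Or.inl ⟨F, inferInstance, inferInstance, this, 4, by norm_num, by norm_num, ⟨e⟩⟩)
      · exact k3 (Or.inr (Or.inr (Or.inr (Or.inr (Or.inr (Or.inr (Or.inl ⟨F, inferInstance, inferInstance, this,
          Or.inl ⟨by rw [hF], ⟨e⟩⟩⟩)))))))
    · have := char_three (Or.inr hF)
      exact k3 (Or.inr (Or.inr (Or.inl ⟨F, inferInstance, inferInstance, this, 4, 3, by rw [hF]; norm_num,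
        by norm_num, by norm_num, ⟨e⟩⟩)))
    · exfalso
      rcases hS with hS | hS | hS | hS | hS | hS | hS | hS | hS | hS | hS | hS | hS | hS | hS | hS | hS | hS | hS
      · exact five_spor T h .m11 (by decide) hS
      · exact five_spor T h .m12 (by decide) hS
      · exact five_spor T h .m22 (by decide) hS
      · exact five_spor T h .m23 (by decide) hS
      · exact five_spor T h .m24 (by decide) hS
      · exact five_spor T h .j2 (by decide) hS
      · exact five_spor T h .j3 (by decide) hS
      · exact five_spor T h .j4 (by decide) hS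
      · exact five_spor T h .hs (by decide) hS
      · exact five_spor T h .suz (by decide) hS
      · exact five_spor T h .ru (by decide) hS
      · exact five_spor T h .co1 (by decide) hS
      · exact five_spor T h .co2 (by decide) hS
      · exact five_spor T h .fi22 (by decide) hS
      · exact five_spor T h .fi23 (by decide) hS
      · exact five_spor T h .fi24 (by decide) hS
      · exact five_spor T h .th (by decide) hS
      · exact five_spor T h .b (by decide) hS
      · exact five_spor T h .m (by decide) hS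
  · omega
  · omega
  · omega
  · omega

end Cfsg.Agent.H284.CpTwoFive
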