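import Cfsg.Agent.H284.StdRed
import Cfsg.Agent.H284.LeafIso
import Cfsg.Agent.H284.HexNo
import Cfsg.Agent.SporadicB.DoubleCoverUnique
import Cfsg.Agent.Cit.OneIdentMain
import Cfsg.Agent.S3099
import Cfsg.Agent.S1173
import Cfsg.Agent.S0507
import Cfsg.Agent.S0523
import Cfsg.Agent.S1742

/-!
# Standard subgroups with even centre and alternating quotient of degree 5, 6, 7 (helper284)
-/

set_option autoImplicit false

namespace Cfsg.Agent.H284.EvenSmall

open Subgroup Cfsg Cfsg.Agent.Cit Cfsg.Agent.H284.StdRed Cfsg.Agent.H284.OneFam Cfsg.Agent.H284.NC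
open Cfsg.Agent.SignalizersComponents

universe u

theorem ext (G : Type u) [Group G] [Finite G] [IsSimpleGroup G] : OneIdent.Ext G :=
  ⟨fun S hS => S0507.result S hS, fun S hS => S0523.result S hS,
    fun _ _ _ hF S P h => S1742.result hF S P h⟩

/-- 2-rank one from `K/O(K)` -/
theorem rank_of_core {K : Type*} [Group K] [Finite K]
    (h : ∀ x y : K ⧸ oddCore K, orderOf x = 2 → orderOf y = 2 → x = y) : PRankLE 2 1 K := by
  intro B hB hB2
  have hn : (oddCore K).Normal := Lib.Cores.pPrimeCore_normal 2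
  have ho : Odd (Nat.card (oddCore K)) := Nat.coprime_two_right.1 (Lib.Cores.pPrimeCore_coprime (G := K) 2)
  have hord : ∀ b ∈ B, b ≠ 1 → orderOf (QuotientGroup.mk' (oddCore K) b) = 2 := by
    intro b hb hb1
    apply orderOf_eq_prime
    · rw [← map_pow, hB2 b hb, map_one]
    · intro h1
      rw [QuotientGroup.mk'_apply, QuotientGroup.eq_one_iff] at h1
      have h2 : orderOf b = 2 := orderOf_eq_prime (hB2 b hb) hb1
      have h3 : orderOf (⟨b, h1⟩ : oddCore K) ∣ Nat.card (oddCore K) := orderOf_dvd_natCard _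
      rw [Subgroup.orderOf_mk, h2] at h3
      exact (Nat.not_even_iff_odd.2 ho) (even_iff_two_dvd.2 h3)
  have heq : ∀ a ∈ B, ∀ b ∈ B, a ≠ 1 → b ≠ 1 → a = b := by
    intro a ha b hb ha1 hb1
    by_contra hne
    have h1 := h _ _ (hord a ha ha1) (hord b hb hb1)
    have h2 : a⁻¹ * b ∈ B := mul_mem (inv_mem ha) hb
    have h3 : a⁻¹ * b ≠ 1 := fun h => hne (inv_mul_eq_one.1 h)
    have h4 := hord _ h2 h3
    rw [map_mul, map_inv, h1, inv_mul_cancel, orderOf_one] at h4
    exact absurd h4 (by norm_num)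
  by_cases hb : ∃ b ∈ B, b ≠ 1
  · obtain ⟨b, hb, hb1⟩ := hb
    have h1 : (B : Set K) ⊆ {1, b} := by
      intro a ha
      by_cases ha1 : a = 1
      · exact Or.inl ha1
      · exact Or.inr (heq a ha b hb ha1 hb1)
    have h2 := Set.ncard_le_ncard h1 (Set.toFinite _)
    have h3 : (B : Set K).ncard = Nat.card B := rfl
    rw [h3] at h2
    exact h2.trans ((Set.ncard_insert_le _ _).trans (by rw [Set.ncard_singleton]; norm_num))
  · push Not at hb
    have h1 : B = ⊥ := by rw [eq_bot_iff]; intro x hx; exact mem_bot.2 (hb x hx)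
    rw [h1, card_bot]
    norm_num

theorem isTy {X : Type u} [Group X] [Finite X] (hq : IsQuasisimple X) (h1 : PRankLE 2 1 X) (h2 : Even (Nat.card X)) :
    IsTy (X ⧸ oddCore X) := by
  rcases S3099.result hq.1 h1 h2 with ⟨F, i1, i2, ho, -, h⟩ | h
  · exact Or.inl ⟨F, i1, i2, ho, h⟩
  · exact Or.inr h

theorem ty_mem {G : Type u} [Group G] [Finite G] {K : Subgroup G} (h : Mem K) : Cit.Ty K := by
  refine Or.inr ⟨isTy h.qs h.rank h.even, ?_⟩
  have h3 := h.qs.1.commutator_eq_top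
  rw [_root_.commutator_def] at h3
  have h4 := congrArg (Subgroup.map K.subtype) h3
  rwa [Subgroup.map_commutator, ← MonoidHom.range_eq_map, Subgroup.range_subtype] at h4

/-- the cases of a simple group with a standard subgroup of 2-rank one -/
theorem cases {G : Type u} [Group G] [Finite G] [IsSimpleGroup G] {K : Subgroup G} (hK : Mem K) (hT : TI K)
    (hC : NoCom K) :
    (∃ (F : Type) (_ : Field F) (_ : Fintype F), Odd (Fintype.card F) ∧
      Nonempty (G ≃* Matrix.ProjectiveSpecialLinearGroup (Fin 3) F) ∧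
      Nonempty (↥K ≃* Matrix.SpecialLinearGroup (Fin 2) F)) ∨
    (∃ (F : Type) (_ : Field F) (_ : Fintype F) (q : ℕ), Fintype.card F = q ^ 2 ∧ Odd q ∧ Nonempty (G ≃* PSU 3 F q) ∧
      ∃ (F1 : Type) (_ : Field F1) (_ : Fintype F1), Fintype.card F1 = q ∧
        Nonempty (↥K ≃* Matrix.SpecialLinearGroup (Fin 2) F1)) ∨
    Nat.card K = 24 := by
  have h := OneFam.one hK hT
  have hKf : K ∈ fam K := ⟨1, (cj_one K).symm⟩
  have hm : ∀ J ∈ fam K, Mem J := by
    rintro _ ⟨g, rfl⟩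
    exact hK.cj g
  have ty : ∀ J ∈ fam K, Cit.Ty J := fun J hJ => ty_mem (hm J hJ)
  have hne : (fam K).Nonempty := ⟨K, hKf⟩
  have B : LongLeafEnd.Base (fam K) :=
    ⟨h.hyp, ty, hne, fun K hK J hJ => LongLeafOne.exists_cj_of_one h hK hJ, inferInstance⟩
  obtain ⟨S⟩ : Nonempty (Sylow 2 G) := inferInstance
  have ho : oddCore G = ⊥ := CoreOne.oddCore_eq_bot (CoreOne.two_dvd_card h.hyp hKf)
  have hS := CoreOne.sylow_type h hne (fun K hK => (ty K hK).isType.tyTwo)
    (fun S T hT => S1173.result ho S T hT) S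
  rcases OneIdentMain.identStmt ext G (fam K) h hne ty S hS with h1 | h1 | h1 | h1
  · obtain ⟨F, i1, i2, hodd, ⟨e⟩⟩ := h1
    exact Or.inl ⟨F, i1, i2, hodd, ⟨e⟩, LeafIso.psl3 hodd B (LongLeafEnd.twoCen_of_one h hne) e K hKf⟩
  · obtain ⟨F, i1, i2, q, hF, hodd, ⟨e⟩⟩ := h1
    exact Or.inr (Or.inl ⟨F, i1, i2, q, hF, hodd, ⟨e⟩, LongInst.KK hF, inferInstance, inferInstance,
      LongInst.card_KK hF, LeafIso.psu3 (by rw [hF]; exact hodd.pow) hF B (LongLeafEnd.twoCen_of_one h hne) e K hKf⟩)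
  · right; right
    have h2 := OneLeafBase.eq_SS h.hyp h1 hKf (ty K hKf)
    rw [h2, Eleven.card_SS h1 (h.hyp.orderOf_zz hKf)]
  · exfalso
    obtain ⟨z1, z2, z3, -⟩ := zz_facts hK
    refine HexNo.not_g2d4 h1 hK.qs z2 ?_ (OneFam.cent_le hK hT hKf) hC
    intro x hx
    rw [mem_centralizer_singleton_iff]
    exact mem_centralizer_iff.1 z3 x hx

end Cfsg.Agent.H284.EvenSmall
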