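import Cfsg.Agent.H284.CpTwoFive

/-!
# Groups of type `Five` whose order divides a given number (helper284)

`five_list` : the order of a group of type `Five` whose order divides `N` (`P` : further conditions) lies in `L`, if the
certificate is checked.
-/

set_option autoImplicit false

namespace Cfsg.Agent.H284.FiveNum

open Cfsg Cfsg.Agent.H902 Cfsg.Agent.H284.SepOrd Cfsg.Agent.H284.CpTwoFive Cfsg.Agent.OrdDiv

universe u

variable {S : Type u} [Group S]

/-- the odd primes different from 5 -/
def notFiveL : List ℕ := oddPrimes.filter fun p => p != 5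

theorem five_notMem : 5 ∉ notFiveL := by
  intro h
  have := (List.mem_filter.1 h).2
  exact absurd this (by decide)

/-- `N` is neither the order of a group of Lie type in characteristic 5 nor of an alternating group of odd degree -/
def notFive (N : ℕ) : Bool :=
  chk notFiveL N && ((List.range 23).all fun m => !(Nat.beq (2 * N) (2 * m + 1).factorial)) && Nat.blt (2 * N) (46).factorial

theorem not_lie (T : OrderTable.{u}) (h : IsLieTypeChar 5 S) {N : ℕ} (hc : chk notFiveL N = true) : Nat.card S ≠ N := by
  intro hN
  obtain ⟨X, f, hX⟩ := real_of_lie T Nat.prime_five h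
  rw [hN] at hX
  exact chk_real hX hc (by norm_num) five_notMem

theorem five_not (T : OrderTable.{u}) (h : Five S) : notFive (Nat.card S) = false := by
  by_contra hcon
  rw [Bool.not_eq_false] at hcon
  unfold notFive at hcon
  rw [Bool.and_eq_true, Bool.and_eq_true, List.all_eq_true, Nat.blt_eq] at hcon
  obtain ⟨⟨h1, h2⟩, h3⟩ := hcon
  rcases h with h | ⟨n, hn, ⟨f⟩⟩
  · exact not_lie T h h1 rfl
  · have h4 := alt_card (by omega) f
    have h5 : 2 * n + 1 < 46 := by
      by_contra h6
      have h7 := Nat.factorial_le (show 46 ≤ 2 * n + 1 by omega)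
      omega
    have h6 := h2 n (List.mem_range.2 (by omega))
    rw [h4, Nat.beq_refl] at h6
    cases h6

/-- the certificate -/
def cert (l : List (ℕ × ℕ)) (N : ℕ) (P : ℕ → Bool) (L : List ℕ) : Bool :=
  valid l N && (cands l N).all fun g => !(P (ordN g)) || notFive (ordN g) || L.contains (ordN g)

/-- **The list of the orders.** -/
theorem five_list (T : OrderTable.{u}) (h : Five S) (hk : IsKnownSimple' S) (hna : ¬ IsMulCommutative S)
    {l : List (ℕ × ℕ)} {N : ℕ} {P : ℕ → Bool} {L : List ℕ} (hc : cert l N P L = true) (hd : Nat.card S ∣ N)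
    (hP : P (Nat.card S) = true) : Nat.card S ∈ L := by
  unfold cert at hc
  rw [Bool.and_eq_true, List.all_eq_true] at hc
  obtain ⟨hv, hc⟩ := hc
  obtain ⟨g, hg, -, hcard⟩ := exists_good T hk (fun h' => hna ⟨⟨h'⟩⟩) hv hd
  have h1 := hc g hg
  rw [← hcard, hP, five_not T h, Bool.not_true, Bool.false_or, Bool.false_or, List.contains_iff_mem] at h1
  exact h1

/-- the alternating groups -/
theorem alt_of_card (T : OrderTable.{u}) (h : Five S) {N m : ℕ} (hc : chk notFiveL N = true) (hN : Nat.card S = N)
    (hm : 5 ≤ m) (hf : 2 * N = m.factorial) : Nonempty (S ≃* ↥(alternatingGroup (Fin m))) := by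
  rcases h with h | ⟨n, hn, ⟨f⟩⟩
  · exact absurd hN (not_lie T h hc)
  · have h4 := alt_card (by omega) f
    rw [hN, hf] at h4
    have h5 : m = 2 * n + 1 := by
      rcases lt_trichotomy m (2 * n + 1) with h6 | h6 | h6
      · exact absurd h4 (Nat.factorial_lt_of_lt (by omega) h6).ne'
      · exact h6
      · exact absurd h4 (Nat.factorial_lt_of_lt (by omega) h6).ne
    subst h5
    exact ⟨f⟩

theorem chk_2520 : chk notFiveL 2520 = true := by decide +kernel
theorem chk_181440 : chk notFiveL 181440 = true := by decide +kernel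

/-- `McL` -/
theorem cert_mcl : cert [(2, 7), (3, 6), (5, 3), (7, 1), (11, 1)] 898128000 (fun n => !(Nat.beq (n % 7) 0)) [60] = true := by
  decide +kernel

/-- `O'N` -/
theorem cert_on : cert [(2, 9), (3, 4), (5, 1), (7, 3), (11, 1), (19, 1), (31, 1)] 460815505920
    (fun n => !(Nat.beq (n % 16) 0)) [60, 2520] = true := by
  decide +kernel

/-- `HN` -/
theorem cert_hn : cert [(2, 14), (3, 6), (5, 6), (7, 1), (11, 1), (19, 1)] 273030912000000
    (fun n => !(Nat.beq (n % 11) 0)) [60, 2520, 181440, 126000] = true := by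
  decide +kernel

end Cfsg.Agent.H284.FiveNum
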