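import Cfsg.Agent.H284.StdRed
import Cfsg.Agent.H284.FStd
import Cfsg.Agent.GH.AltOut
import Cfsg.Agent.TypeM.FactsLy
import Cfsg.Agent.S1739

/-!
# S3096: `A` is not the Lyons group (helper284)
-/

set_option autoImplicit false

namespace Cfsg.Agent.H284.LyRow

open Subgroup Cfsg Cfsg.Agent.H284.FStd Cfsg.Agent.SignalizersComponents

universe u

/-- the odd core of a simple group of even order -/
theorem quot_equiv {K : Type u} [Group K] [Finite K] [hs : IsSimpleGroup K] (h2 : 2 ∣ Nat.card K) :
    Nonempty (K ⧸ oddCore K ≃* K) := by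
  have hn : (oddCore K).Normal := Lib.Cores.pPrimeCore_normal 2
  have h : oddCore K = ⊥ := by
    rcases hn.eq_bot_or_eq_top with h | h
    · exact h
    · exfalso
      have h1 : (Nat.card ↥(oddCore K)).Coprime 2 := Lib.Cores.pPrimeCore_coprime 2
      rw [h, Subgroup.card_top, Nat.coprime_comm, Nat.Prime.coprime_iff_not_dvd Nat.prime_two] at h1
      exact h1 h2
  exact ⟨(QuotientGroup.quotientMulEquivOfEq h).trans QuotientGroup.quotientBot⟩

theorem isoLy_congr {A : Type*} [Group A] {B : Type*} [Group B] (e : A ≃* B) (h : Spor.IsoLy A) : Spor.IsoLy B := by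
  obtain ⟨f⟩ := h
  exact ⟨e.symm.trans f⟩

variable {G : Type u} [Group G] [Finite G] (hs : IsSimpleGroup ↥(generalizedFittingSubgroup G))
  (hna : ¬ IsMulCommutative ↥(generalizedFittingSubgroup G)) {A : Subgroup G} (hA : IsStandardSubgroup A)

include hs hna hA in
/-- **`A` is not the Lyons group.** -/
theorem not_ly (hL : Spor.IsoLy ↥A) : False := by
  obtain ⟨hAX, hC, t, htA, ht⟩ := fstd hs hna hA
  have hle : A ≤ centralizer {t} := by
    intro a ha
    rw [mem_centralizer_singleton_iff]
    exact mem_centralizer_iff.1 htA a ha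
  have hN := StandardTrichotomy.centralizer_involution_le hA ht htA
  have hn : (A.subgroupOf (centralizer {t})).Normal := (normal_subgroupOf_iff_le_normalizer hle).2 hN
  have hK : Spor.IsoLy ↥(A.subgroupOf (centralizer ({t} : Set G))) := isoLy_congr (subgroupOfEquivOfLe hle).symm hL
  obtain ⟨hf, hsK, hcard, -⟩ := TypeM.FactsLy.facts hK
  have h2 : 2 ∣ Nat.card ↥(A.subgroupOf (centralizer ({t} : Set G))) := by
    rw [hcard]; norm_num
  have : Fact (Nat.Prime 2) := ⟨Nat.prime_two⟩
  have hP : IsPComponent 2 (A.subgroupOf (centralizer ({t} : Set G))) :=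
    EvenComponent.isPComponent_of_isComponent
      ⟨hn.isSubnormal, QsBasic.isQuasisimple_of_mulEquiv (subgroupOfEquivOfLe hle).symm hA.1⟩ h2
  obtain ⟨e⟩ := quot_equiv h2
  exact (S1739.result (core_eq_bot hs hna) (GH.AltOut.quasisimple hna) t ht _ hP).2 (isoLy_congr e.symm hK)

end Cfsg.Agent.H284.LyRow
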