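import Mathlib
import Cfsg.Agent.S0016
import Cfsg.Agent.SignalizersComponents.StandardTrichotomy
import Cfsg.Agent.SignalizersComponents.QsBasic
import Cfsg.Agent.OddOrderLocal.Rank
import Cfsg.Agent.H284.RankFix
import Cfsg.Agent.EvenType.CharTwoCent
/-!
# The centralizer of a standard subgroup with noncyclic Sylow 2-subgroups of rank one

`exists_data` : `A` standard in `G`, `C(A)` of 2-rank one with a noncyclic Sylow 2-subgroup: `J = C(A) ∩ C(z)`, `z` an involution
of `C(A)`, satisfies the hypotheses of S1309.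
-/

set_option autoImplicit false
set_option linter.unusedSectionVars false

namespace Cfsg.Agent.H284.QuatJ

open Cfsg Subgroup
open Cfsg.Agent.SignalizersComponents

/-- a noncyclic Sylow 2-subgroup of a group of 2-rank 1 -/
theorem exists_quat {C : Type*} [Group C] [Finite C] (hrk : PRankLE 2 1 C) (R : Sylow 2 C)
    (hR : ¬ IsCyclic ↥(R : Subgroup C)) : ∃ n : ℕ, Nonempty (↥(R : Subgroup C) ≃* QuaternionGroup (2 ^ (n + 1))) := by
  rcases S0016.result (G := R) 2 R.isPGroup'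
    (QsBasic.unique_of_rank_one R.isPGroup' (OddOrderLocal.Rank.pRankLE_subgroup hrk)) with hS | ⟨_, n, ⟨e⟩⟩
  · exact absurd hS hR
  · rcases n with _ | n
    · exfalso
      apply hR
      have h1 : IsCyclic (QuaternionGroup (2 ^ 0)) := by
        rw [pow_zero]; exact QuaternionGroup.quaternionGroup_one_isCyclic
      exact isCyclic_of_surjective e.symm e.symm.surjective
    · exact ⟨n, ⟨e⟩⟩

theorem sq_one {C : Type*} [Group C] {a : C} (h : orderOf a = 2) : a * a = 1 := by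
  rw [← pow_two, ← h, pow_orderOf_eq_one]

theorem ne_one {C : Type*} [Group C] {a : C} (h : orderOf a = 2) : a ≠ 1 := by
  rintro rfl
  rw [orderOf_one] at h
  omega

/-- commuting involutions in a group of 2-rank 1 -/
theorem eq_of_comm {C : Type*} [Group C] [Finite C] (hrk : PRankLE 2 1 C) {a b : C} (ha : orderOf a = 2)
    (hb : orderOf b = 2) (hab : a * b = b * a) : a = b := by
  by_contra hne
  have h1 := hrk (RankFix.four a b (sq_one ha) (sq_one hb) hab)
    ⟨⟨fun x y => Subtype.ext (RankFix.comm_four (x : C) x.2 (y : C) y.2)⟩⟩ (fun x hx => by rw [pow_two]; exact RankFix.sq_four x hx)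
  rw [RankFix.card_four (sq_one ha) (sq_one hb) hab (ne_one ha) (ne_one hb) hne] at h1
  norm_num at h1


theorem exists_data {G : Type*} [Group G] [Finite G] {A : Subgroup G} (hA : IsStandardSubgroup A)
    (hrk : PRankLE 2 1 ↥(centralizer (A : Set G)))
    (R : Sylow 2 ↥(centralizer (A : Set G))) (hR : ¬ IsCyclic ↥(R : Subgroup ↥(centralizer (A : Set G)))) :
    ∃ (z : G) (J : Subgroup G), orderOf z = 2 ∧ J ≤ centralizer ({z} : Set G) ∧ z ∈ J ∧
      (J.subgroupOf (centralizer ({z} : Set G))).Normal ∧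
      (∃ S : Sylow 2 ↥J, ∃ n : ℕ, Nonempty (↥(S : Subgroup ↥J) ≃* QuaternionGroup (2 ^ (n + 1)))) ∧
      (∀ t ∈ J, orderOf t = 2 → t = z) ∧
      (∀ u ∈ centralizer ({z} : Set G), J.map (MulAut.conj u).toMonoidHom = J) ∧
      centralizer ({z} : Set G) ≤ normalizer (J : Set G) := by
  have : Fact (Nat.Prime 2) := ⟨Nat.prime_two⟩
  obtain ⟨n, ⟨e⟩⟩ := exists_quat hrk R hR
  let C := centralizer (A : Set G)
  -- the involution
  have hRne : 2 ∣ Nat.card ↥(R : Subgroup ↥C) := by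
    rw [Nat.card_congr e.toEquiv, Nat.card_eq_fintype_card, QuaternionGroup.card]
    exact (by norm_num : 2 ∣ 4).mul_right _
  obtain ⟨w, hw⟩ := exists_prime_orderOf_dvd_card' 2 hRne
  have hwC : orderOf (w : ↥C) = 2 := by rw [Subgroup.orderOf_coe, hw]
  have hwc : ∀ r ∈ R, r * (w : ↥C) = w * r := by
    intro r hr
    have h1 : orderOf ((⟨r, hr⟩ : ↥(R : Subgroup ↥C)) * w * (⟨r, hr⟩)⁻¹) = 2 := by
      exact ((MulAut.conj (⟨r, hr⟩ : ↥(R : Subgroup ↥C))).orderOf_eq w).trans hw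
    have h2 := QsBasic.unique_of_rank_one R.isPGroup' (OddOrderLocal.Rank.pRankLE_subgroup hrk)
      (zpowers ((⟨r, hr⟩ : ↥(R : Subgroup ↥C)) * w * (⟨r, hr⟩)⁻¹)) (zpowers w) (by rw [Nat.card_zpowers, h1])
      (by rw [Nat.card_zpowers, hw])
    have h3 : (⟨r, hr⟩ : ↥(R : Subgroup ↥C)) * w * (⟨r, hr⟩)⁻¹ ∈ zpowers w := h2 ▸ mem_zpowers _
    rcases EvenType.CharTwoCent.mem_zpowers_cases (sq_one hw) h3 with h4 | h4
    · exfalso
      rw [h4, orderOf_one] at h1
      omega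
    · have h5 : (⟨r, hr⟩ : ↥(R : Subgroup ↥C)) * w = w * ⟨r, hr⟩ := by
        calc (⟨r, hr⟩ : ↥(R : Subgroup ↥C)) * w = ((⟨r, hr⟩ : ↥(R : Subgroup ↥C)) * w * (⟨r, hr⟩)⁻¹) * ⟨r, hr⟩ := by group
          _ = w * ⟨r, hr⟩ := by rw [h4]
      exact congrArg Subtype.val h5
  set z : G := ((w : ↥C) : G) with hzdef
  have hz : orderOf z = 2 := by rw [hzdef, Subgroup.orderOf_coe, hwC]
  have hzC : z ∈ C := (w : ↥C).2
  let J : Subgroup G := C ⊓ centralizer ({z} : Set G)
  have hJz : J ≤ centralizer ({z} : Set G) := inf_le_right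
  have hzJ : z ∈ J := ⟨hzC, mem_centralizer_singleton_iff.2 rfl⟩
  have hle := StandardTrichotomy.centralizer_involution_le hA hz hzC
  have hCn : ∀ u ∈ centralizer ({z} : Set G), ∀ c ∈ C, u * c * u⁻¹ ∈ C := by
    intro u hu c hc
    have h1 : u ∈ normalizer (C : Set G) := hA.2.2.2 ▸ hle hu
    exact (mem_normalizer_iff.1 h1 c).1 hc
  have hJn : ∀ u ∈ centralizer ({z} : Set G), ∀ c ∈ J, u * c * u⁻¹ ∈ J := by
    intro u hu c hc
    exact mem_inf.2 ⟨hCn u hu c (mem_inf.1 hc).1, mul_mem (mul_mem hu (mem_inf.1 hc).2) (inv_mem hu)⟩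
  have hnorm : centralizer ({z} : Set G) ≤ normalizer (J : Set G) := by
    intro u hu
    rw [mem_normalizer_iff]
    intro c
    constructor
    · exact fun hc => hJn u hu c hc
    · intro hc
      have h1 := hJn u⁻¹ (inv_mem hu) _ hc
      have h2 : u⁻¹ * (u * c * u⁻¹) * u⁻¹⁻¹ = c := by group
      rwa [h2] at h1
  have hsn : (J.subgroupOf (centralizer ({z} : Set G))).Normal := by
    rw [normal_subgroupOf_iff_le_normalizer hJz]
    exact hnorm
  -- the Sylow subgroup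
  have hRJ : (R : Subgroup ↥C).map C.subtype ≤ J := by
    rintro _ ⟨r, hr, rfl⟩
    refine mem_inf.2 ⟨r.2, ?_⟩
    rw [mem_centralizer_singleton_iff]
    exact congrArg (fun y : ↥C => (y : G)) (hwc r hr)
  let R1 : Subgroup ↥J := ((R : Subgroup ↥C).map C.subtype).subgroupOf J
  let f : ↥R1 ≃* ↥(R : Subgroup ↥C) := (subgroupOfEquivOfLe hRJ).trans
    ((R : Subgroup ↥C).equivMapOfInjective C.subtype C.subtype_injective).symm
  have hdJ : Nat.card ↥J ∣ Nat.card ↥C := Subgroup.card_dvd_of_le inf_le_left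
  have hcard : Nat.card ↥R1 = 2 ^ (Nat.card ↥J).factorization 2 := by
    have h1 : Nat.card ↥R1 = 2 ^ (Nat.card ↥C).factorization 2 := by
      rw [Nat.card_congr f.toEquiv, R.card_eq_multiplicity]
    have h2 : (Nat.card ↥J).factorization 2 ≤ (Nat.card ↥C).factorization 2 :=
      (Nat.factorization_le_iff_dvd Nat.card_pos.ne' Nat.card_pos.ne').2 hdJ 2
    have h3 : 2 ^ (Nat.card ↥C).factorization 2 ∣ Nat.card ↥J := h1 ▸ Subgroup.card_subgroup_dvd_card R1
    have h4 := (Nat.prime_two.pow_dvd_iff_le_factorization Nat.card_pos.ne').1 h3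
    rw [h1, le_antisymm h2 h4]
  have hQ : ∃ S : Sylow 2 ↥J, ∃ n : ℕ, Nonempty (↥(S : Subgroup ↥J) ≃* QuaternionGroup (2 ^ (n + 1))) :=
    ⟨Sylow.ofCard R1 hcard, n, ⟨(MulEquiv.subgroupCongr (Sylow.coe_ofCard R1 hcard)).trans (f.trans e)⟩⟩
  have huniq : ∀ t ∈ J, orderOf t = 2 → t = z := by
    intro t ht hto
    have h1 : orderOf (⟨t, ht.1⟩ : ↥C) = 2 := by rw [Subgroup.orderOf_mk, hto]
    have h2 := eq_of_comm hrk h1 hwC (Subtype.ext (mem_centralizer_singleton_iff.1 ht.2))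
    exact congrArg Subtype.val h2
  have hmap : ∀ u ∈ centralizer ({z} : Set G), J.map (MulAut.conj u).toMonoidHom = J := by
    intro u hu
    ext c
    constructor
    · rintro ⟨d, hd, rfl⟩
      exact hJn u hu d hd
    · intro hc
      refine ⟨u⁻¹ * c * u, ?_, ?_⟩
      · have h1 := hJn u⁻¹ (inv_mem hu) c hc
        rwa [inv_inv] at h1
      · change u * (u⁻¹ * c * u) * u⁻¹ = c
        group
  exact ⟨z, J, hz, hJz, hzJ, hsn, hQ, huniq, hmap, hnorm⟩

end Cfsg.Agent.H284.QuatJ
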