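import Cfsg.Agent.H284.CpTwoFive
import Cfsg.Agent.H284.KFour
import Cfsg.Agent.H284.AltComp
import Cfsg.Agent.H284.CharTwoComp
import Cfsg.Agent.H284.RankFix
import Cfsg.Agent.H902.Enum
import Cfsg.Agent.GH.AltOut
import Cfsg.Agent.GH.AssemblyK4
import Cfsg.Agent.StandardComponent.FiRedGen
import Cfsg.Agent.S1738
import Cfsg.Agent.EvenType.ChevTwo
import Cfsg.Agent.EvenType.CharTwoCent
import Cfsg.Agent.OddHalf.Known
import Cfsg.Agent.Mrg.Omega.ExitsThree
import Cfsg.Prelude.Def_Spor_Ly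
/-!
# S3096: the rows alternating, Lie type of odd characteristic, sectional 2-rank at most 4

`Concl X` : the conclusion of S3096; `Desc` : the descent of the characteristic for the components of type `Five`.
-/

set_option autoImplicit false

namespace Cfsg.Agent.H284.Row96

open Cfsg Subgroup
open Cfsg.Agent.H284.CpTwoFive

universe u

/-- The conclusion of S3096. -/
def Concl (X : Type u) [Group X] : Prop :=
  IsLieTypeChar 5 X ∨
    (∃ n : ℕ, 2 ≤ n ∧ Nonempty (X ≃* ↥(alternatingGroup (Fin (2 * n + 1))))) ∨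
    (∃ (F : Type) (_ : Field F) (_ : Fintype F), Fintype.card F = 16 ∧
      (Nonempty (X ≃* Matrix.ProjectiveSpecialLinearGroup (Fin 2) F) ∨ Nonempty (X ≃* PSU 3 F 4))) ∨
    (∃ (F : Type) (_ : Field F) (_ : Fintype F), Fintype.card F = 4 ∧
      Nonempty (X ≃* Matrix.ProjectiveSpecialLinearGroup (Fin 3) F)) ∨
    Spor.IsoM12 X ∨ Spor.IsoJ1 X ∨ Spor.IsoJ2 X ∨ Spor.IsoLy X ∨ Spor.IsoHe X

/-- The descent of the characteristic (a consequence of `THEOREM DESC`). -/
def Desc : Prop :=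
  ∀ (X : Type u) [Group X] [Finite X] [IsSimpleGroup X] (p : ℕ), p.Prime → p ≠ 2 → IsLieTypeChar p X →
    ∀ x : MulAut X, x * x = 1 → x ≠ 1 → ∀ A : Subgroup ↥(fixedSubgroup x), A.Normal → IsComponent A →
      Five (↥A ⧸ center ↥A) → p = 5

/-! ### centres -/

theorem center_bot {A : Type*} [Group A] [hs : IsSimpleGroup A] (hq : IsQuasisimple A) : center A = ⊥ := by
  rcases IsSimpleGroup.eq_bot_or_eq_top_of_normal (center A) inferInstance with h | h
  · exact h
  · exfalso
    have h1 := hq.2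
    obtain ⟨y, hy⟩ := exists_ne (1 : A ⧸ center A)
    obtain ⟨a, rfl⟩ := QuotientGroup.mk_surjective y
    exact hy ((QuotientGroup.eq_one_iff a).2 (h ▸ mem_top a))

/-- `A / Z(A) ≅ A`, if `Z(A) = 1` -/
noncomputable def quotEquiv {A : Type*} [Group A] (h : center A = ⊥) : A ⧸ center A ≃* A :=
  (QuotientGroup.quotientMulEquivOfEq h).trans QuotientGroup.quotientBot

theorem simple_alt {n : ℕ} (hn : 5 ≤ n) {A : Type*} [Group A] (e : A ≃* ↥(alternatingGroup (Fin n))) :
    IsSimpleGroup A := by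
  have h1 : IsSimpleGroup ↥(alternatingGroup (Fin n)) := alternatingGroup.isSimpleGroup (by rwa [Nat.card_fin])
  exact e.isSimpleGroup

section rows

variable {X : Type u} [Group X] {x : MulAut X} (hxx : x * x = 1) (hx1 : x ≠ 1)
  {A : Subgroup ↥(fixedSubgroup x)} (hA : IsComponent A) (h5 : Five (↥A ⧸ center ↥A))

include hxx hx1 hA h5

/-- The alternating groups. -/
theorem alt_row (T : OrdDiv.OrderTable.{u}) {m : ℕ} (hm : 5 ≤ m) (e : X ≃* ↥(alternatingGroup (Fin m))) : Concl X := by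
  obtain ⟨n, k, hn, hk, hmk, ⟨f⟩, -, -⟩ := AltComp.table hm e hxx hx1 hA
  have hs := simple_alt hn f
  have hc := center_bot hA.2
  have ho := five_alt T h5 hn ((quotEquiv hc).trans f)
  obtain ⟨l, hl⟩ := ho
  obtain rfl : m = 2 * (l + k) + 1 := by omega
  exact Or.inr (Or.inl ⟨l + k, by omega, ⟨e⟩⟩)

/-- The groups of Lie type in odd characteristic. -/
theorem odd_row [Finite X] [IsSimpleGroup X] (hAn : A.Normal) (D : Desc.{u}) {p : ℕ} (hp : p.Prime) (hp2 : p ≠ 2) (hX : IsLieTypeChar p X) :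
    Concl X := by
  obtain rfl := D X p hp hp2 hX x hxx hx1 A hAn hA h5
  exact Or.inl hX

end rows

/-! ### fields -/

theorem exists_char (F : Type) [Field F] [Fintype F] : ∃ p, p.Prime ∧ CharP F p := by
  obtain ⟨r, f, hr, -, hc, -⟩ := isChar_of_card (F := F)
  exact ⟨r, hr, hc⟩

theorem char_ne_two {F : Type} [Field F] [Fintype F] (ho : Odd (Fintype.card F)) {p : ℕ} (hc : CharP F p) : p ≠ 2 := by
  rintro rfl
  exact (Nat.not_even_iff_odd.2 ho) (even_iff_two_dvd.2 ((CharP.cast_eq_zero_iff F 2 _).1 (FiniteField.cast_card_eq_zero F)))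

/-! ### characteristic two and the sporadic groups -/

theorem fin_spor : ∀ x ∈ [(4, 7920), (7, 443520), (7, 10200960), (7, 50232960), (7, 898128000)],
    ∀ a ∈ H902.Art.ents 2 x.1, H902.Art.val 2 a ≠ x.2 := by decide +kernel

theorem fac_eq {v N m : ℕ} (h : N = 2 ^ v * m) (hm : m % 2 = 1) : N.factorization 2 = v := by
  have hm0 : m ≠ 0 := by rintro rfl; simp at hm
  rw [h, Nat.factorization_mul (by positivity) hm0, Nat.factorization_pow]
  have h2 : m.factorization 2 = 0 := Nat.factorization_eq_zero_of_not_dvd (by omega)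
  simp [h2, Nat.prime_two.factorization_self]

/-- A group of Lie type in characteristic two (or the Tits group) is none of `M₁₁`, `M₂₂`, `M₂₃`, `J₃`, `McL`. -/
theorem two_spor (T : OrdDiv.OrderTable.{u}) {X : Type u} [Group X] (h : IsLieTypeChar 2 X ∨ Lie.IsoTits X)
    {g : OrdDiv.Grp} (hg : g ∈ [OrdDiv.Grp.m11, .m22, .m23, .j3, .mcl]) (hr : OrdDiv.Real g X) : False := by
  have key : ∀ {N v m : ℕ}, Nat.card X = N → N = 2 ^ v * m → m % 2 = 1 → N ≠ 17971200 →
      (v, N) ∈ [(4, 7920), (7, 443520), (7, 10200960), (7, 50232960), (7, 898128000)] → False := by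
    intro N v m hc hN hm h17 hmem
    rcases h with h | h
    · obtain ⟨Y, f, hY⟩ := SepOrd.real_of_lie T Nat.prime_two h
      have h1 := H902.Art.mem_ents (v := v) hY (by rw [H902.Art.P_prime_exp hY, hc, fac_eq hN hm])
      have h2 := H902.Art.val_eq hY
      rw [hc] at h2
      exact fin_spor _ hmem _ h1 h2
    · have h1 : Nat.card X = 17971200 := T.spor X (.tits, 17971200) (by decide) h
      exact h17 (hc.symm.trans h1)
  rw [List.mem_cons, List.mem_cons, List.mem_cons, List.mem_cons, List.mem_singleton] at hg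
  rcases hg with rfl | rfl | rfl | rfl | rfl
  · exact key (T.spor X (.m11, 7920) (by decide) hr) (m := 495) (v := 4) (by norm_num) (by norm_num) (by norm_num) (by decide)
  · exact key (T.spor X (.m22, 443520) (by decide) hr) (m := 3465) (v := 7) (by norm_num) (by norm_num) (by norm_num) (by decide)
  · exact key (T.spor X (.m23, 10200960) (by decide) hr) (m := 79695) (v := 7) (by norm_num) (by norm_num) (by norm_num) (by decide)
  · exact key (T.spor X (.j3, 50232960) (by decide) hr) (m := 392445) (v := 7) (by norm_num) (by norm_num) (by norm_num) (by decide)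
  · exact key (T.spor X (.mcl, 898128000) (by decide) hr) (m := 7016625) (v := 7) (by norm_num) (by norm_num) (by norm_num) (by decide)

/-! ### sectional 2-rank at most 4 -/

theorem card_dvd {X : Type u} [Group X] {x : MulAut X} (A : Subgroup ↥(fixedSubgroup x)) : Nat.card A ∣ Nat.card X :=
  (Subgroup.card_subgroup_dvd_card A).trans (Subgroup.card_subgroup_dvd_card _)

section rowsK

variable {X : Type u} [Group X] [Finite X] [hs : IsSimpleGroup X] {x : MulAut X} (hxx : x * x = 1) (hx1 : x ≠ 1)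
  {A : Subgroup ↥(fixedSubgroup x)} (hA : IsComponent A) (h5 : Five (↥A ⧸ center ↥A))

include hxx hx1 hA h5

/-- The list of the simple groups of sectional 2-rank at most 4. -/
theorem k4_row (hAn : A.Normal) (T : OrdDiv.OrderTable.{u}) (D : Desc.{u}) (hna : ¬ IsMulCommutative X)
    (h60 : 60 ∣ Nat.card ↥A)
    (hno : ∀ g : OrdDiv.Grp, g ∈ [OrdDiv.Grp.m11, .m22, .m23, .j3, .mcl] → ¬ OrdDiv.Real g X)
    (hK : GH.Defs.K4 X) : Concl X := by
  have hd : 60 ∣ Nat.card X := h60.trans (card_dvd A)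
  have odd : ∀ {p : ℕ}, p.Prime → p ≠ 2 → IsLieTypeChar p X → Concl X := fun hp hp2 h =>
    odd_row hxx hx1 hA h5 hAn D hp hp2 h
  have alt : ∀ {m : ℕ}, 5 ≤ m → GH.Defs.IsAlt m X → Concl X := fun hm h => alt_row hxx hx1 hA h5 T hm h.some
  have bad : ∀ {g : OrdDiv.Grp}, g ∈ [OrdDiv.Grp.m11, .m22, .m23, .j3, .mcl] → OrdDiv.Real g X → Concl X :=
    fun hg hr => (hno _ hg hr).elim
  rcases hK with h | h | h | h | h | h | h | h | h | h | ⟨h, -⟩ | ⟨h, -⟩ | h | h | h | h | h | h
  · -- 2-rank two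
    rcases h with ⟨F, _, _, ho, hq, ⟨e⟩⟩ | ⟨F, _, _, ho, ⟨e⟩⟩ | ⟨F, _, _, q, hF, hq, ⟨e⟩⟩ | h | h | h
    · obtain ⟨p, hp, hc⟩ := exists_char F
      exact odd hp (char_ne_two ho hc) (Or.inl ⟨F, inferInstance, inferInstance, hc, 2, le_rfl, fun _ => by omega, ⟨e⟩⟩)
    · obtain ⟨p, hp, hc⟩ := exists_char F
      exact odd hp (char_ne_two ho hc)
        (Or.inl ⟨F, inferInstance, inferInstance, hc, 3, by norm_num, fun h => by omega, ⟨e⟩⟩)
    · obtain ⟨p, hp, hc⟩ := exists_char F
      have ho : Odd (Fintype.card F) := by rw [hF]; exact hq.pow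
      exact odd hp (char_ne_two ho hc) (Or.inr (Or.inr (Or.inl ⟨F, inferInstance, inferInstance, hc, 3, q, hF, le_rfl,
        by rintro ⟨-, rfl⟩; exact absurd hq (by decide), ⟨e⟩⟩)))
    · obtain ⟨F, _, _, hF, e⟩ := h
      exact Or.inr (Or.inr (Or.inl ⟨F, inferInstance, inferInstance, hF, Or.inr e⟩))
    · exact alt (by norm_num) h
    · exact bad (g := .m11) (by decide) h
  · -- 2-rank three
    rcases h with ⟨F, _, _, hF, ⟨e⟩⟩ | ⟨F, _, _, hF, ⟨e⟩⟩ | h | h
    · exfalso
      have h1 : Nat.card X = 504 := by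
        rw [Nat.card_congr e.toEquiv, ClassicalGeometry.PSL2Basic.card_PSL2_even F (by rw [hF]; decide), hF]; norm_num
      rw [h1] at hd
      exact absurd hd (by decide)
    · exfalso
      have h1 : Nat.card X = 29120 := by
        rw [Nat.card_congr e.toEquiv, GH.AssemblyK4.card_sz_eight hF]; norm_num
      rw [h1] at hd
      exact absurd hd (by decide)
    · exact odd Nat.prime_three (by norm_num)
        (Or.inr (Or.inr (Or.inr (Or.inr (Or.inr (Or.inr (Or.inr (Or.inr (Or.inr (Or.inr ⟨rfl, h⟩))))))))))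
    · exact Or.inr (Or.inr (Or.inr (Or.inr (Or.inr (Or.inl h)))))
  · obtain ⟨F, _, _, hF, e⟩ := h
    exact Or.inr (Or.inr (Or.inl ⟨F, inferInstance, inferInstance, hF, Or.inl e⟩))
  · obtain ⟨F, _, _, hF, e⟩ := h
    exact Or.inr (Or.inr (Or.inr (Or.inl ⟨F, inferInstance, inferInstance, hF, e⟩)))
  · obtain ⟨n, hn, -, h⟩ := h
    exact alt (by omega) h
  · -- `PSp₄(q)`
    obtain ⟨F, _, _, ho, ⟨e⟩⟩ := h
    obtain ⟨p, hp, hc⟩ := exists_char F
    refine odd hp (char_ne_two ho hc) (Or.inr (Or.inl ⟨F, inferInstance, inferInstance, hc, 2, le_rfl, fun _ => ?_, ⟨e⟩⟩))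
    have h1 : 1 < Fintype.card F := Fintype.one_lt_card
    obtain ⟨k, hk⟩ := ho
    omega
  · obtain ⟨F, _, _, ho, -, ⟨e⟩⟩ := h
    obtain ⟨p, hp, hc⟩ := exists_char F
    exact odd hp (char_ne_two ho hc)
      (Or.inl ⟨F, inferInstance, inferInstance, hc, 4, by norm_num, fun h => by omega, ⟨e⟩⟩)
  · obtain ⟨F, _, _, q, hF, hq, -, ⟨e⟩⟩ := h
    obtain ⟨p, hp, hc⟩ := exists_char F
    have ho : Odd (Fintype.card F) := by rw [hF]; exact hq.pow
    exact odd hp (char_ne_two ho hc) (Or.inr (Or.inr (Or.inl ⟨F, inferInstance, inferInstance, hc, 4, q, hF, by norm_num,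
      by rintro ⟨h, -⟩; omega, ⟨e⟩⟩)))
  · obtain ⟨F, _, _, hq, ⟨e⟩⟩ := h
    obtain ⟨p, hp, hc⟩ := exists_char F
    have ho : Odd (Fintype.card F) := by rw [Nat.odd_iff]; omega
    exact odd hp (char_ne_two ho hc)
      (Or.inl ⟨F, inferInstance, inferInstance, hc, 5, by norm_num, fun h => by omega, ⟨e⟩⟩)
  · obtain ⟨F, _, _, q, hF, hq, ⟨e⟩⟩ := h
    obtain ⟨p, hp, hc⟩ := exists_char F
    have hqo : Odd q := by rw [Nat.odd_iff]; omega
    have ho : Odd (Fintype.card F) := by rw [hF]; exact hqo.pow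
    exact odd hp (char_ne_two ho hc) (Or.inr (Or.inr (Or.inl ⟨F, inferInstance, inferInstance, hc, 5, q, hF, by norm_num,
      by rintro ⟨h, -⟩; omega, ⟨e⟩⟩)))
  · -- `G₂(q)`
    obtain ⟨F, _, _, ho, e⟩ := h
    obtain ⟨p, hp, hc⟩ := exists_char F
    have h1 : 1 < Fintype.card F := Fintype.one_lt_card
    refine odd hp (char_ne_two ho hc) (Or.inr (Or.inr (Or.inr (Or.inr (Or.inr (Or.inr (Or.inl
      ⟨F, inferInstance, inferInstance, hc, Or.inl ⟨?_, e⟩⟩)))))))
    obtain ⟨k, hk⟩ := ho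
    omega
  · -- `³D₄(q)`
    obtain ⟨F, _, _, q, hqo, hF, e⟩ := h
    obtain ⟨p, hp, hc⟩ := exists_char F
    have ho : Odd (Fintype.card F) := by rw [hF]; exact hqo.pow
    have hqp : IsPrimePow q := by
      have h2 : IsPrimePow (q ^ 3) := hF ▸ Fintype.isPrimePow_card_of_field
      exact (isPrimePow_pow_iff (by norm_num)).1 h2
    exact odd hp (char_ne_two ho hc) (Or.inr (Or.inr (Or.inr (Or.inr (Or.inr (Or.inr (Or.inr (Or.inl
      ⟨F, inferInstance, inferInstance, hc, q, hqp, Or.inr ⟨hF, e⟩⟩))))))))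
  · exact Or.inr (Or.inr (Or.inr (Or.inr (Or.inl h))))
  · exact bad (g := .m22) (by decide) h
  · exact bad (g := .m23) (by decide) h
  · exact Or.inr (Or.inr (Or.inr (Or.inr (Or.inr (Or.inr (Or.inl h))))))
  · exact bad (g := .j3) (by decide) h
  · have hO : oddCore X = ⊥ := StandardComponent.FiRedGen.oddCore_eq_bot ((by norm_num : 2 ∣ 60).trans hd)
    rcases GH.AltOut.mcl_or_ly hna hO (fun a b c d e f g i j k => S1738.result a b c d e f g i j k) h with h | h
    · exact bad (g := .mcl) (by decide) h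
    · exact Or.inr (Or.inr (Or.inr (Or.inr (Or.inr (Or.inr (Or.inr (Or.inl h)))))))

end rowsK

/-! ### characteristic two -/

theorem act_of_two {X : Type u} [Group X] [Finite X] [IsSimpleGroup X] (hna : ¬ IsMulCommutative X)
    (h : IsLieTypeChar 2 X ∨ Lie.IsoTits X) : CharTwoComp.ACT X := fun _ hu =>
  EvenType.CharTwoCent.char2_centralizer (EvenType.ChevTwo.charTwo hna
    (h.elim Or.inl fun h => Or.inr (Or.inl ⟨rfl, Or.inr (Or.inr h)⟩))) hu

theorem known_of_five {A : Type u} [Group A] (h : Five A) : IsKnownSimple' A := by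
  rcases h with h | ⟨n, hn, h⟩
  · exact Omega.Outputs.known_of_lieType h
  · exact Or.inr (Or.inl ⟨2 * n + 1, by omega, h⟩)

/-- A simple group of type `Five` in which the centralizers of the involutions have characteristic 2. -/
theorem act_five (T0 : OrdDiv.OrderTable.{0}) (hT : CpAut.TwoAbs.Table.{0}) {A : Type u} [Group A] [Finite A]
    [IsSimpleGroup A] (hna : ¬ IsMulCommutative A) (h : Five A) (hact : CharTwoComp.ACT A) :
    Nonempty (A ≃* ↥(alternatingGroup (Fin 5))) := by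
  have : Small.{0} A := Countable.toSmall A
  let e : Shrink.{0} A ≃* A := Shrink.mulEquiv
  have : Finite (Shrink.{0} A) := Finite.of_equiv A e.symm.toEquiv
  have hs : IsSimpleGroup (Shrink.{0} A) := e.isSimpleGroup
  have hn : ¬ IsMulCommutative (Shrink.{0} A) := by
    intro hc
    apply hna
    refine ⟨⟨fun a b => ?_⟩⟩
    apply e.symm.injective
    rw [map_mul, map_mul]
    exact hc.is_comm.comm _ _
  have h5 : Five (Shrink.{0} A) := h.congr e.symm
  have h2 := hT (Shrink.{0} A) hn (known_of_five h5) (hact.congr e.symm)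
  obtain ⟨f⟩ := five_cp T0 hn h5 h2
  exact ⟨e.symm.trans f⟩

section rowsTwo

variable {X : Type u} [Group X] [Finite X] [hs : IsSimpleGroup X] {x : MulAut X} (hxx : x * x = 1) (hx1 : x ≠ 1)
  {A : Subgroup ↥(fixedSubgroup x)} (hA : IsComponent A) (h5 : Five (↥A ⧸ center ↥A))

include hxx hx1 hA h5

theorem act_row (hAn : A.Normal) (T : OrdDiv.OrderTable.{u}) (T0 : OrdDiv.OrderTable.{0}) (hT : CpAut.TwoAbs.Table.{0}) (D : Desc.{u})
    (hna : ¬ IsMulCommutative X) (hact : CharTwoComp.ACT X)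
    (hno : ∀ g : OrdDiv.Grp, g ∈ [OrdDiv.Grp.m11, .m22, .m23, .j3, .mcl] → ¬ OrdDiv.Real g X) : Concl X := by
  obtain ⟨h1, h2, h3, h4⟩ := CharTwoComp.of_fix hact hxx hA
  have hAna : ¬ IsMulCommutative ↥A := by
    intro hc
    have h6 := hA.2.1
    have h7 : Group.IsSolvable ↥A := Group.isSolvable_of_comm fun a b => hc.is_comm.comm a b
    exact SignalizersComponents.Components.quasisimple_not_isSolvable hA.2 h7
  obtain ⟨e⟩ := act_five T0 hT hAna (h5.congr (quotEquiv (center_bot hA.2))) h4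
  refine k4_row hxx hx1 hA h5 hAn T D hna ?_ hno (KFour.k4 X hna (RankFix.rank_a5 hxx hx1 h2 h3 e))
  rw [Nat.card_congr e.toEquiv, nat_card_alternatingGroup, Nat.card_fin]
  decide

/-- The groups of Lie type in characteristic two and the Tits group. -/
theorem two_row (hAn : A.Normal) (T : OrdDiv.OrderTable.{u}) (T0 : OrdDiv.OrderTable.{0}) (hT : CpAut.TwoAbs.Table.{0}) (D : Desc.{u})
    (hna : ¬ IsMulCommutative X) (h : IsLieTypeChar 2 X ∨ Lie.IsoTits X) : Concl X :=
  act_row hxx hx1 hA h5 hAn T T0 hT D hna (act_of_two hna h) fun _ hg hr => two_spor T h hg hr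

end rowsTwo

end Cfsg.Agent.H284.Row96
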